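import Mathlib.GroupTheory.FiniteAbelian.Duality
import Mathlib.RingTheory.RootsOfUnity.AlgebraicallyClosed
import Mathlib.Analysis.Complex.Polynomial.Basic
import Mathlib.LinearAlgebra.LinearIndependent.Basic
import Mathlib.LinearAlgebra.FiniteDimensional.Basic

/-!
Counting by linearly independent common eigenvectors.
-/

set_option autoImplicit false

namespace CfsgLib.TISolvable

open Finset

/-- Common eigenvectors of pairwise different eigenvalue systems are linearly independent. -/
theorem linearIndependent_of_common_eigen {ι J : Type*} {W : Type*} [AddCommGroup W] [Module ℂ W]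
    (f : J → W →ₗ[ℂ] W) (χ : ι → J → ℂ) (w : ι → W) (hw : ∀ i, w i ≠ 0)
    (heig : ∀ i j, f j (w i) = χ i j • w i) (hinj : Function.Injective χ) :
    LinearIndependent ℂ w := by
  classical
  rw [linearIndependent_iff']
  intro s
  induction s using Finset.induction_on with
  | empty => intro g _ i hi; exact absurd hi (Finset.notMem_empty i)
  | @insert a s has ih =>
    intro g hg
    have hz : ∀ i ∈ s, g i = 0 := by
      intro i hi
      obtain ⟨j, hj⟩ := Function.ne_iff.mp (hinj.ne (show i ≠ a from fun h => has (h ▸ hi)))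
      have h1 : ∑ k ∈ insert a s, (g k * (χ k j - χ a j)) • w k = 0 := by
        have h2 : f j (∑ k ∈ insert a s, g k • w k) - χ a j • (∑ k ∈ insert a s, g k • w k) =
            ∑ k ∈ insert a s, (g k * (χ k j - χ a j)) • w k := by
          rw [map_sum, Finset.smul_sum, ← Finset.sum_sub_distrib]
          refine Finset.sum_congr rfl fun k _ => ?_
          rw [map_smul, heig, smul_smul, smul_smul, ← sub_smul]
          congr 1
          ring
        rw [← h2, hg, map_zero, smul_zero, sub_zero]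
      rw [Finset.sum_insert has, sub_self, mul_zero, zero_smul, zero_add] at h1
      exact (mul_eq_zero.mp (ih _ h1 i hi)).resolve_right (sub_ne_zero.mpr hj)
    intro i hi
    rcases Finset.mem_insert.mp hi with rfl | h
    · rw [Finset.sum_insert has,
        Finset.sum_eq_zero (fun k hk => by rw [hz k hk, zero_smul]), add_zero] at hg
      exact (smul_eq_zero.mp hg).resolve_right (hw i)
    · exact hz i h

theorem card_le_finrank_of_common_eigen {ι J : Type*} [Finite ι] {W : Type*} [AddCommGroup W]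
    [Module ℂ W] [FiniteDimensional ℂ W]
    (f : J → W →ₗ[ℂ] W) (χ : ι → J → ℂ) (w : ι → W) (hw : ∀ i, w i ≠ 0)
    (heig : ∀ i j, f j (w i) = χ i j • w i) (hinj : Function.Injective χ) :
    Nat.card ι ≤ Module.finrank ℂ W := by
  haveI := Fintype.ofFinite ι
  rw [Nat.card_eq_fintype_card]
  exact (linearIndependent_of_common_eigen f χ w hw heig hinj).fintype_card_le_finrank

/-- A nontrivially acting finite abelian group has an eigenprojection for a nontrivial character. -/
theorem exists_nontrivial_eigenprojection {A : Type*} [CommGroup A] [Finite A] {V : Type*}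
    [AddCommGroup V] [Module ℂ V] (f : A →* Module.End ℂ V) (a₀ : A) (ha₀ : f a₀ ≠ 1) :
    ∃ θ : A →* ℂˣ, θ ≠ 1 ∧ ∃ π : Module.End ℂ V, π ≠ 0 ∧ (∀ b, f b * π = (θ b : ℂ) • π) ∧
      ∀ T : Module.End ℂ V, (∀ b, Commute T (f b)) → Commute T π := by
  classical
  haveI := Fintype.ofFinite A
  haveI : NeZero (Monoid.exponent A) := ⟨Monoid.exponent_ne_zero_of_finite⟩
  haveI : Finite (A →* ℂˣ) := Nat.finite_of_card_ne_zero
    (by rw [CommGroup.card_monoidHom_of_hasEnoughRootsOfUnity A ℂ]; exact Nat.card_pos.ne')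
  haveI := Fintype.ofFinite (A →* ℂˣ)
  set π : (A →* ℂˣ) → Module.End ℂ V := fun θ => ∑ a, ((θ a⁻¹ : ℂˣ) : ℂ) • f a with hπ
  have heig : ∀ θ : A →* ℂˣ, ∀ b, f b * π θ = (θ b : ℂ) • π θ := by
    intro θ b
    simp only [hπ, Finset.mul_sum, Finset.smul_sum]
    refine Fintype.sum_equiv (Equiv.mulLeft b) _ _ fun a => ?_
    rw [Equiv.coe_mulLeft, Algebra.mul_smul_comm, ← map_mul, smul_smul]
    congr 1
    rw [mul_inv, map_mul, Units.val_mul, map_inv θ b, ← mul_assoc, Units.mul_inv, one_mul]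
  by_cases hex : ∃ θ : A →* ℂˣ, θ ≠ 1 ∧ π θ ≠ 0
  · obtain ⟨θ, h1, h2⟩ := hex
    refine ⟨θ, h1, π θ, h2, heig θ, fun T hT => ?_⟩
    exact Commute.sum_right _ _ _ fun a _ => (hT a).smul_right _
  exfalso
  push Not at hex
  have hsum : ∑ θ : A →* ℂˣ, π θ = (Fintype.card (A →* ℂˣ) : ℂ) • (1 : Module.End ℂ V) := by
    simp only [hπ]
    rw [Finset.sum_comm, Finset.sum_eq_single (1 : A)]
    · rw [← Finset.sum_smul]
      simp
    · intro a _ ha
      obtain ⟨φ, hφ⟩ := CommGroup.exists_apply_ne_one_of_hasEnoughRootsOfUnity A ℂ (inv_ne_one.mpr ha)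
      have h : ∑ θ : A →* ℂˣ, ((θ a⁻¹ : ℂˣ) : ℂ) = (φ a⁻¹ : ℂ) * ∑ θ : A →* ℂˣ, ((θ a⁻¹ : ℂˣ) : ℂ) := by
        rw [Finset.mul_sum]
        refine (Fintype.sum_equiv (Equiv.mulLeft φ) _ _ fun θ => ?_).symm
        simp
      rw [← Finset.sum_smul]
      have h0 : ∑ θ : A →* ℂˣ, ((θ a⁻¹ : ℂˣ) : ℂ) = 0 := by
        by_contra hne
        exact hφ (Units.val_eq_one.mp ((mul_eq_right₀ hne).mp h.symm))
      rw [h0, zero_smul]
    · intro h
      exact absurd (Finset.mem_univ _) h
  have h1 : π 1 = (Fintype.card (A →* ℂˣ) : ℂ) • (1 : Module.End ℂ V) := by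
    rw [← hsum, Finset.sum_eq_single (1 : A →* ℂˣ) (fun θ _ hθ => hex θ hθ)
      (fun h => absurd (Finset.mem_univ _) h)]
  have h2 := heig 1 a₀
  rw [MonoidHom.one_apply, Units.val_one, one_smul, h1, Algebra.mul_smul_comm, mul_one] at h2
  exact ha₀ (smul_right_injective _ (Nat.cast_ne_zero.mpr Fintype.card_ne_zero) h2)

end CfsgLib.TISolvable
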